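import Cfsg.Agent.Lib.Helper16.McK.Defs
import Cfsg.Agent.Lib.Helper41.SL2Degree
import Cfsg.Agent.Lib.Helper41.Dicyclic
import Cfsg.Agent.Lib.Helper41.SylowTorus
import Cfsg.Agent.Lib.Helper62.SL2Norm
import Cfsg.Agent.Lib.Helper80.Core
import Cfsg.Agent.Lib.Helper76.ItoDeg
import Cfsg.Agent.Lib.Helper3.Table
import Cfsg.Agent.Lib.Helper78.DefectZero
import Cfsg.Agent.S2325
import Cfsg.Agent.S2428
import Cfsg.Agent.S2429
import Cfsg.Agent.S2430
import Cfsg.Agent.S2431
import Cfsg.Agent.S2437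

set_option autoImplicit false

namespace Cfsg.Agent.Lib.Helper16.McK

open Cfsg Cfsg.Agent.Lib.Helper41 Cfsg.Agent.Lib.Helper15 Cfsg.Agent.Lib.Helper74

local notation "SL2" F => Matrix.SpecialLinearGroup (Fin 2) F

/-- [FS] sum over the irreducible characters sorted by degree (`Finset.sum_fiberwise_of_maps_to`). -/
theorem sum_by_degree {X : Type*} [Group X] [Finite X] (D : Finset ℕ)
    (hD : ∀ χ : IrrCharacter X, charDegree (χ : X → ℂ) ∈ D) (f : ℕ → ℕ) :
    ∑ χ : IrrCharacter X, f (charDegree (χ : X → ℂ)) = ∑ d ∈ D, nd X d * f d := by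
  classical
  rw [← Finset.sum_fiberwise_of_maps_to (s := Finset.univ) (t := D)
    (g := fun χ : IrrCharacter X => charDegree (χ : X → ℂ)) (fun χ _ => hD χ)]
  apply Finset.sum_congr rfl
  intro d _
  have h1 : ∀ χ ∈ Finset.univ.filter (fun χ : IrrCharacter X => charDegree (χ : X → ℂ) = d),
      f (charDegree (χ : X → ℂ)) = f d := by
    intro χ hχ
    rw [(Finset.mem_filter.1 hχ).2]
  rw [Finset.sum_congr rfl h1, Finset.sum_const, smul_eq_mul]
  congr 1
  unfold nd
  rw [Nat.card_eq_fintype_card, Fintype.card_subtype]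

end Cfsg.Agent.Lib.Helper16.McK
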