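import Cfsg.Agent.Lib.Helper16.McK.Defs
import Cfsg.Agent.Lib.Helper41.SL2Degree
import Cfsg.Agent.Lib.Helper41.Dicyclic
import Cfsg.Agent.Lib.Helper41.SylowTorus
import Cfsg.Agent.Lib.Helper62.SL2Norm
import Cfsg.Agent.Lib.Helper80.Core
import Cfsg.Agent.Lib.Helper76.ItoDeg
import Cfsg.Agent.Lib.Helper3.Table
import Cfsg.Agent.Lib.Helper78.DefectZero
import Cfsg.Agent.S2325
import Cfsg.Agent.S2428
import Cfsg.Agent.S2429
import Cfsg.Agent.S2430
import Cfsg.Agent.S2431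
import Cfsg.Agent.S2437

set_option autoImplicit false

namespace Cfsg.Agent.Lib.Helper16.McK

open Cfsg Cfsg.Agent.Lib.Helper41 Cfsg.Agent.Lib.Helper15 Cfsg.Agent.Lib.Helper74

local notation "SL2" F => Matrix.SpecialLinearGroup (Fin 2) F

variable {F : Type*} [Field F] [Fintype F]

/-- [G0] from `NSGen.classification_deg` (`exists_NSGen`) and `char_one_eq_charDegree`. -/
theorem deg_cases (hodd : Odd (Fintype.card F)) (χ : IrrCharacter (SL2 F)) :
    charDegree (χ : (SL2 F) → ℂ) = 1 ∨ charDegree (χ : (SL2 F) → ℂ) = Fintype.card F ∨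
    charDegree (χ : (SL2 F) → ℂ) = Fintype.card F + 1 ∨
    2 * charDegree (χ : (SL2 F) → ℂ) = Fintype.card F + 1 ∨
    charDegree (χ : (SL2 F) → ℂ) + 1 = Fintype.card F ∨
    2 * charDegree (χ : (SL2 F) → ℂ) + 1 = Fintype.card F := by
  classical
  obtain ⟨T⟩ := exists_NSGen (F := F)
  obtain ⟨d, hd, h⟩ := T.classification_deg (Nat.odd_iff.1 hodd) χ.2
  have hd' : charDegree (χ : (SL2 F) → ℂ) = d := by
    have := Cfsg.Agent.Lib.Helper80.char_one_eq_charDegree (Cfsg.Agent.Lib.Helper80.isCharacter_of_irr χ.2)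
    rw [hd] at this
    exact_mod_cast this.symm
  rw [hd']
  rcases h with ⟨_, h⟩ | ⟨_, h⟩ | ⟨_, h⟩ | ⟨_, h⟩ | ⟨_, h⟩ | ⟨_, h⟩
  · exact Or.inl h
  · exact Or.inr (Or.inl h)
  · exact Or.inr (Or.inr (Or.inl h))
  · exact Or.inr (Or.inr (Or.inr (Or.inl h)))
  · exact Or.inr (Or.inr (Or.inr (Or.inr (Or.inl h))))
  · exact Or.inr (Or.inr (Or.inr (Or.inr (Or.inr h))))

end Cfsg.Agent.Lib.Helper16.McK
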