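import Cfsg.Agent.Lib.Helper16.McK.Defs
import Cfsg.Agent.Lib.Helper41.SL2Degree
import Cfsg.Agent.Lib.Helper41.Dicyclic
import Cfsg.Agent.Lib.Helper41.SylowTorus
import Cfsg.Agent.Lib.Helper62.SL2Norm
import Cfsg.Agent.Lib.Helper80.Core
import Cfsg.Agent.Lib.Helper76.ItoDeg
import Cfsg.Agent.Lib.Helper3.Table
import Cfsg.Agent.Lib.Helper78.DefectZero
import Cfsg.Agent.S2325
import Cfsg.Agent.S2428
import Cfsg.Agent.S2429
import Cfsg.Agent.S2430
import Cfsg.Agent.S2431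
import Cfsg.Agent.S2437

set_option autoImplicit false

namespace Cfsg.Agent.Lib.Helper16.McK

open Cfsg Cfsg.Agent.Lib.Helper41 Cfsg.Agent.Lib.Helper15 Cfsg.Agent.Lib.Helper74

local notation "SL2" F => Matrix.SpecialLinearGroup (Fin 2) F

variable {F : Type*} [Field F] [Fintype F]

/-- [G1] for `q ≥ 5` degree 1 forces `χ = one'` in `classification_deg` (and `one'_irr`). -/
theorem nd_one (hodd : Odd (Fintype.card F)) (hq5 : 5 ≤ Fintype.card F) : nd (SL2 F) 1 = 1 := by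
  classical
  unfold nd
  rw [Nat.card_eq_one_iff_unique]
  have key : ∀ χ : IrrCharacter (SL2 F), charDegree (χ : (SL2 F) → ℂ) = 1 →
      (χ : (SL2 F) → ℂ) = one' := by
    intro χ hχ
    obtain ⟨T⟩ := exists_NSGen (F := F)
    obtain ⟨d, hd, h⟩ := T.classification_deg (Nat.odd_iff.1 hodd) χ.2
    have hd' : charDegree (χ : (SL2 F) → ℂ) = d := by
      have := Cfsg.Agent.Lib.Helper80.char_one_eq_charDegree (Cfsg.Agent.Lib.Helper80.isCharacter_of_irr χ.2)
      rw [hd] at this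
      exact_mod_cast this.symm
    rw [hχ] at hd'
    rcases h with ⟨h', _⟩ | ⟨_, h⟩ | ⟨_, h⟩ | ⟨_, h⟩ | ⟨_, h⟩ | ⟨_, h⟩
    · exact h'
    all_goals omega
  constructor
  · constructor
    rintro ⟨χ, hχ⟩ ⟨ψ, hψ⟩
    apply Subtype.ext
    apply Subtype.ext
    rw [key χ hχ, key ψ hψ]
  · refine ⟨⟨⟨one', one'_irr⟩, ?_⟩⟩
    simp [charDegree, one']

end Cfsg.Agent.Lib.Helper16.McK
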