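import Cfsg.Agent.Lib.Helper16.McK.Defs
import Cfsg.Agent.Lib.Helper41.SL2Degree
import Cfsg.Agent.Lib.Helper41.Dicyclic
import Cfsg.Agent.Lib.Helper41.SylowTorus
import Cfsg.Agent.Lib.Helper62.SL2Norm
import Cfsg.Agent.Lib.Helper80.Core
import Cfsg.Agent.Lib.Helper76.ItoDeg
import Cfsg.Agent.Lib.Helper3.Table
import Cfsg.Agent.Lib.Helper78.DefectZero
import Cfsg.Agent.S2325
import Cfsg.Agent.S2428
import Cfsg.Agent.S2429
import Cfsg.Agent.S2430
import Cfsg.Agent.S2431
import Cfsg.Agent.S2437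
import Cfsg.Agent.Lib.Helper16.McK.NT

set_option autoImplicit false

namespace Cfsg.Agent.Lib.Helper16.McK

open Cfsg Cfsg.Agent.Lib.Helper41 Cfsg.Agent.Lib.Helper15 Cfsg.Agent.Lib.Helper74

local notation "SL2" F => Matrix.SpecialLinearGroup (Fin 2) F

variable {F : Type*} [Field F] [Fintype F]

/-- existence of the quadratic character -/
theorem G3_exists_quad (hodd : Odd (Fintype.card F)) : ∃ β : MulChar F ℂ, β = β⁻¹ ∧ β ≠ 1 := by
  classical
  have h2 : ringChar F ≠ 2 := by
    intro h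
    have := FiniteField.even_card_of_char_two h
    have h' := Nat.odd_iff.1 hodd
    omega
  refine ⟨(quadraticChar F).ringHomComp (Int.castRingHom ℂ), ?_, ?_⟩
  · exact (((quadraticChar_isQuadratic F).comp (Int.castRingHom ℂ)).inv).symm
  · rw [Ne, ← Ne, MulChar.ringHomComp_ne_one_iff (Int.cast_injective)]
    exact quadraticChar_ne_one h2

/-- [G3] for `q ≥ 5`: `2 d = q + 1` iff `χ` is a constituent of `psR β₀`, `β₀` the quadratic character (unique
`β = β⁻¹ ≠ 1`); every constituent has multiplicity 1 (`NSGen.profile_halfP`), the norm is 2 (`psR_norm_two`);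
Parseval. -/
theorem nd_halfP (hodd : Odd (Fintype.card F)) (hq5 : 5 ≤ Fintype.card F) :
    nd (SL2 F) ((Fintype.card F + 1) / 2) = 2 := by
  classical
  have hodd' : Fintype.card F % 2 = 1 := Nat.odd_iff.1 hodd
  obtain ⟨β, hβ, hβ1⟩ := G3_exists_quad hodd
  refine Eq.trans ?_ (NT_card (Cfsg.Agent.Lib.Helper26.gen_of_char (psR_isCharacter β)) (psR_norm_two β hβ)
    (fun η hη hne => (norm_two_constituent (psR_isCharacter β) (psR_norm_two β hβ) hη hne).1))
  unfold nd
  apply Nat.card_congr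
  apply Equiv.subtypeEquivRight
  intro χ
  have h1 := Cfsg.Agent.Lib.Helper80.char_one_eq_charDegree (irr_char χ.2)
  constructor
  · intro hd
    obtain ⟨β', hβ', hβ'1, hne⟩ := NSGen.type_of_degree_halfP hodd' hq5 χ.2 (by rw [h1, hd])
    rw [mulChar_quad_unique β β' hβ hβ1 hβ' hβ'1]
    exact hne
  · intro hne
    have h2 := NSGen.degree_halfP hodd' χ.2 β hβ hβ1 hne
    rw [h1] at h2
    have h3 : ((2 * charDegree (χ : (SL2 F) → ℂ) : ℕ) : ℂ) = ((Fintype.card F + 1 : ℕ) : ℂ) := by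
      push_cast; rw [h2]; ring
    have h4 : 2 * charDegree (χ : (SL2 F) → ℂ) = Fintype.card F + 1 := by exact_mod_cast h3
    omega

end Cfsg.Agent.Lib.Helper16.McK
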