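import Cfsg.Agent.Lib.Helper16.McK.Defs
import Cfsg.Agent.Lib.Helper41.SL2Degree
import Cfsg.Agent.Lib.Helper41.Dicyclic
import Cfsg.Agent.Lib.Helper41.SylowTorus
import Cfsg.Agent.Lib.Helper62.SL2Norm
import Cfsg.Agent.Lib.Helper80.Core
import Cfsg.Agent.Lib.Helper76.ItoDeg
import Cfsg.Agent.Lib.Helper3.Table
import Cfsg.Agent.Lib.Helper78.DefectZero
import Cfsg.Agent.S2325
import Cfsg.Agent.S2428
import Cfsg.Agent.S2429
import Cfsg.Agent.S2430
import Cfsg.Agent.S2431
import Cfsg.Agent.S2437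
import Cfsg.Agent.Lib.Helper16.McK.NT

set_option autoImplicit false

namespace Cfsg.Agent.Lib.Helper16.McK

open Cfsg Cfsg.Agent.Lib.Helper41 Cfsg.Agent.Lib.Helper15 Cfsg.Agent.Lib.Helper74

local notation "SL2" F => Matrix.SpecialLinearGroup (Fin 2) F

open scoped IsMulCommutative

variable {F : Type*} [Field F] [Fintype F]

/-- existence of the quadratic character of the non-split torus -/
theorem G4_exists_quad [DecidableEq F] (T : NSGen F) (hodd : Fintype.card F % 2 = 1) :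
    ∃ θ : T.C →* ℂˣ, θ = θ⁻¹ ∧ θ ≠ 1 := by
  have hq1 : 1 < Fintype.card F := Fintype.one_lt_card
  have hc : T.gen ^ ((Fintype.card F + 1) / 2) ≠ 1 :=
    pow_ne_one_of_lt_orderOf (by omega) (by rw [T.orderOf_gen]; omega)
  obtain ⟨φ, hφ⟩ := CommGroup.exists_apply_ne_one_of_hasEnoughRootsOfUnity T.C ℂ hc
  refine ⟨(powMonoidHom ((Fintype.card F + 1) / 2) : ℂˣ →* ℂˣ).comp φ, ?_, ?_⟩
  · apply MonoidHom.ext
    intro c
    rw [MonoidHom.inv_apply, MonoidHom.comp_apply, powMonoidHom_apply, eq_inv_iff_mul_eq_one, ← pow_add]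
    have h1 : (Fintype.card F + 1) / 2 + (Fintype.card F + 1) / 2 = Fintype.card F + 1 := by omega
    rw [h1, ← map_pow, ← T.card_C, pow_card_eq_one', map_one]
  · intro h
    apply hφ
    have := congrArg (fun f : T.C →* ℂˣ => f T.gen) h
    simpa using this

/-- [G4] same with `T.X hodd θ₀` (`NSGen.profile_halfD`, `X_norm_two`, `theta_quad_unique`). -/
theorem nd_halfD (hodd : Odd (Fintype.card F)) (hq5 : 5 ≤ Fintype.card F) :
    nd (SL2 F) ((Fintype.card F - 1) / 2) = 2 := by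
  classical
  have hodd' : Fintype.card F % 2 = 1 := Nat.odd_iff.1 hodd
  obtain ⟨T⟩ := exists_NSGen (F := F)
  obtain ⟨θ, hθ, hθ1⟩ := G4_exists_quad T hodd'
  refine Eq.trans ?_ (NT_card (T.X_isGen hodd' θ) (T.X_norm_two hodd' θ hθ)
    (fun η hη hne => by
      have := (T.profile_halfD hodd' hη θ hθ hθ1 hne).2 θ
      rwa [if_pos rfl] at this))
  unfold nd
  apply Nat.card_congr
  apply Equiv.subtypeEquivRight
  intro χ
  have h1 := Cfsg.Agent.Lib.Helper80.char_one_eq_charDegree (irr_char χ.2)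
  constructor
  · intro hd
    obtain ⟨θ', hθ', hθ'1, hne⟩ := T.type_of_degree_halfD hodd' hq5 χ.2 (by rw [h1, hd])
    rw [T.theta_quad_unique θ θ' hθ hθ1 hθ' hθ'1]
    exact hne
  · intro hne
    have h2 := T.degree_halfD hodd' χ.2 θ hθ hθ1 hne
    rw [h1] at h2
    have h3 : ((2 * charDegree (χ : (SL2 F) → ℂ) + 1 : ℕ) : ℂ) = ((Fintype.card F : ℕ) : ℂ) := by
      push_cast; rw [h2]; ring
    have h4 : 2 * charDegree (χ : (SL2 F) → ℂ) + 1 = Fintype.card F := by exact_mod_cast h3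
    omega

end Cfsg.Agent.Lib.Helper16.McK
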