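import Cfsg.Agent.Lib.Helper16.McK.Defs
import Cfsg.Agent.Lib.Helper41.SL2Degree
import Cfsg.Agent.Lib.Helper41.Dicyclic
import Cfsg.Agent.Lib.Helper41.SylowTorus
import Cfsg.Agent.Lib.Helper62.SL2Norm
import Cfsg.Agent.Lib.Helper80.Core
import Cfsg.Agent.Lib.Helper76.ItoDeg
import Cfsg.Agent.Lib.Helper3.Table
import Cfsg.Agent.Lib.Helper78.DefectZero
import Cfsg.Agent.S2325
import Cfsg.Agent.S2428
import Cfsg.Agent.S2429
import Cfsg.Agent.S2430
import Cfsg.Agent.S2431
import Cfsg.Agent.S2437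
import Cfsg.Agent.Lib.Helper16.McK.FS
import Cfsg.Agent.Lib.Helper16.McK.G0
import Cfsg.Agent.Lib.Helper16.McK.G1
import Cfsg.Agent.Lib.Helper16.McK.G2
import Cfsg.Agent.Lib.Helper16.McK.G3
import Cfsg.Agent.Lib.Helper16.McK.G4

set_option autoImplicit false

namespace Cfsg.Agent.Lib.Helper16.McK

open Cfsg Cfsg.Agent.Lib.Helper41 Cfsg.Agent.Lib.Helper15 Cfsg.Agent.Lib.Helper74

local notation "SL2" F => Matrix.SpecialLinearGroup (Fin 2) F

variable {F : Type*} [Field F] [Fintype F]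

/-- [CT] FS with `D = {1, q, q+1, (q+1)/2, q-1, (q-1)/2}` (six distinct values), `f = 1` (S2325 + card_irrCharacter:
total `q + 4`) and `f d = d²` (`sum_sq_charDegree`, `Helper5.card_SL2`); with G1–G4 two linear equations in
`a = nd (q+1)`, `c = nd (q-1)`: `a + c = q - 2`, `a (q+1)² + c (q-1)² = q³ - 2q² - q - 2`, so `4 q a = 2 q (q-3)`. -/
theorem nd_big (hodd : Odd (Fintype.card F)) (hq5 : 5 ≤ Fintype.card F) :
    nd (SL2 F) (Fintype.card F + 1) = (Fintype.card F - 3) / 2 ∧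
    nd (SL2 F) (Fintype.card F - 1) = (Fintype.card F - 1) / 2 := by
  classical
  have hodd' : Fintype.card F % 2 = 1 := Nat.odd_iff.1 hodd
  obtain ⟨m, hm⟩ : ∃ m, Fintype.card F = 2 * m + 1 := ⟨Fintype.card F / 2, by omega⟩
  have hm2 : 2 ≤ m := by omega
  have g1 := nd_one hodd hq5
  have g2 := nd_q hodd
  have g3 := nd_halfP hodd hq5
  have g4 := nd_halfD hodd hq5
  have e3 : (Fintype.card F + 1) / 2 = m + 1 := by omega
  have e4 : (Fintype.card F - 1) / 2 = m := by omega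
  have e5 : Fintype.card F - 1 = 2 * m := by omega
  have e6 : (Fintype.card F - 3) / 2 = m - 1 := by omega
  rw [e3] at g3
  rw [e4] at g4
  rw [e4, e5, e6]
  rw [hm] at g2 ⊢
  set D : Finset ℕ := {1, 2 * m + 1, 2 * m + 1 + 1, m + 1, 2 * m, m} with hDdef
  have hD : ∀ χ : IrrCharacter (SL2 F), charDegree (χ : (SL2 F) → ℂ) ∈ D := by
    intro χ
    have := deg_cases hodd χ
    rw [hm] at this
    simp only [hDdef, Finset.mem_insert, Finset.mem_singleton]
    omega
  have hsum : ∀ f : ℕ → ℕ, ∑ d ∈ D, nd (SL2 F) d * f d =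
      nd (SL2 F) 1 * f 1 + (nd (SL2 F) (2 * m + 1) * f (2 * m + 1) +
      (nd (SL2 F) (2 * m + 1 + 1) * f (2 * m + 1 + 1) + (nd (SL2 F) (m + 1) * f (m + 1) +
      (nd (SL2 F) (2 * m) * f (2 * m) + nd (SL2 F) m * f m)))) := by
    intro f
    rw [hDdef, Finset.sum_insert (by simp only [Finset.mem_insert, Finset.mem_singleton]; omega),
      Finset.sum_insert (by simp only [Finset.mem_insert, Finset.mem_singleton]; omega),
      Finset.sum_insert (by simp only [Finset.mem_insert, Finset.mem_singleton]; omega),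
      Finset.sum_insert (by simp only [Finset.mem_insert, Finset.mem_singleton]; omega),
      Finset.sum_insert (by simp only [Finset.mem_singleton]; omega), Finset.sum_singleton]
  have E1 := sum_by_degree D hD (fun _ => 1)
  have E2 := sum_by_degree D hD (fun d => d ^ 2)
  rw [hsum] at E1 E2
  have k1 : ∑ _χ : IrrCharacter (SL2 F), 1 = 2 * m + 1 + 4 := by
    rw [Finset.sum_const, Finset.card_univ, ← Nat.card_eq_fintype_card,
      Cfsg.Agent.Lib.Helper3.card_irrCharacter, Cfsg.Agent.S2325.result hodd, hm]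
    simp
  have k2 : ∑ χ : IrrCharacter (SL2 F), (charDegree (χ : (SL2 F) → ℂ)) ^ 2 =
      (2 * m + 1) * ((2 * m + 1) ^ 2 - 1) := by
    rw [Cfsg.Agent.Lib.Helper80.sum_sq_charDegree, Cfsg.Agent.Lib.Helper5.card_SL2, hm]
  rw [k1] at E1
  rw [k2] at E2
  rw [g1, g2, g3, g4] at E1 E2
  set a := nd (SL2 F) (2 * m + 1 + 1) with ha
  set c := nd (SL2 F) (2 * m) with hc
  have k3 : (2 * m + 1) ^ 2 - 1 = 4 * m ^ 2 + 4 * m := by
    have : (2 * m + 1) ^ 2 = 4 * m ^ 2 + 4 * m + 1 := by ring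
    omega
  rw [k3] at E2
  obtain ⟨n, rfl⟩ : ∃ n, m = n + 1 := ⟨m - 1, by omega⟩
  have hac : a + c = 2 * n + 1 := by omega
  have hc' : c = 2 * n + 1 - a := by omega
  have hale : a ≤ 2 * n + 1 := by omega
  obtain ⟨b, hb⟩ : ∃ b, 2 * n + 1 = a + b := ⟨2 * n + 1 - a, by omega⟩
  have hcb : c = b := by omega
  rw [hcb] at E2 ⊢
  have key : a * (8 * n + 12) = n * (8 * n + 12) := by
    have hb' : b = 2 * n + 1 - a := by omega
    zify at E2 hb ⊢
    have hb2 : (b : ℤ) = 2 * n + 1 - a := by linarith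
    rw [hb2] at E2
    linear_combination (-1 : ℤ) * E2
  have ha' : a = n := Nat.eq_of_mul_eq_mul_right (by omega) key
  constructor
  · simpa using ha'
  · omega

end Cfsg.Agent.Lib.Helper16.McK
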