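import Cfsg.Agent.Lib.Helper16.McK.Defs
import Cfsg.Agent.Lib.Helper41.SL2Degree
import Cfsg.Agent.Lib.Helper41.Dicyclic
import Cfsg.Agent.Lib.Helper41.SylowTorus
import Cfsg.Agent.Lib.Helper62.SL2Norm
import Cfsg.Agent.Lib.Helper80.Core
import Cfsg.Agent.Lib.Helper76.ItoDeg
import Cfsg.Agent.Lib.Helper3.Table
import Cfsg.Agent.Lib.Helper78.DefectZero
import Cfsg.Agent.S2325
import Cfsg.Agent.S2428
import Cfsg.Agent.S2429
import Cfsg.Agent.S2430
import Cfsg.Agent.S2431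
import Cfsg.Agent.S2437

set_option autoImplicit false

namespace Cfsg.Agent.Lib.Helper16.McK

open Cfsg Cfsg.Agent.Lib.Helper41 Cfsg.Agent.Lib.Helper15 Cfsg.Agent.Lib.Helper74

local notation "SL2" F => Matrix.SpecialLinearGroup (Fin 2) F

/-- [MS] `mck` as a sum. -/
theorem mck_eq_sum {X : Type*} [Group X] [Finite X] (ℓ : ℕ) :
    mck X ℓ = ∑ χ : IrrCharacter X, (if ℓ ∣ charDegree (χ : X → ℂ) then 0 else 1) := by
  classical
  unfold mck
  rw [Nat.card_eq_fintype_card, Fintype.card_subtype, Finset.card_filter]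
  apply Finset.sum_congr rfl
  intro χ _
  by_cases h : ℓ ∣ charDegree (χ : X → ℂ) <;> simp [h]

end Cfsg.Agent.Lib.Helper16.McK
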