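import Cfsg.Agent.Lib.Helper16.McK.Defs
import Cfsg.Agent.Lib.Helper41.SL2Degree
import Cfsg.Agent.Lib.Helper41.Dicyclic
import Cfsg.Agent.Lib.Helper41.SylowTorus
import Cfsg.Agent.Lib.Helper62.SL2Norm
import Cfsg.Agent.Lib.Helper80.Core
import Cfsg.Agent.Lib.Helper76.ItoDeg
import Cfsg.Agent.Lib.Helper3.Table
import Cfsg.Agent.Lib.Helper78.DefectZero
import Cfsg.Agent.S2325
import Cfsg.Agent.S2428
import Cfsg.Agent.S2429
import Cfsg.Agent.S2430
import Cfsg.Agent.S2431
import Cfsg.Agent.S2437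
import Cfsg.Agent.Lib.Helper16.McK.FS
import Cfsg.Agent.Lib.Helper16.McK.MS

set_option autoImplicit false

namespace Cfsg.Agent.Lib.Helper16.McK

open Cfsg Cfsg.Agent.Lib.Helper41 Cfsg.Agent.Lib.Helper15 Cfsg.Agent.Lib.Helper74

local notation "SL2" F => Matrix.SpecialLinearGroup (Fin 2) F

/-- [D] dicyclic-like groups have exactly four characters of odd degree: all degrees divide `2` (Ito, `T` is
normal since of index 2); `n₁ + n₂ = k`, `n₁ + 4 n₂ = |X| = 2|T|` (FS with `D = {1,2}`, `Helper80.sum_sq_charDegree`,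
`Helper3.card_irrCharacter`), `2k = |T| + 6`; hence `n₁ = 4`. -/
theorem mck_two_of_dicyclic {X : Type*} [Group X] [Finite X] (T : Subgroup X) (hidx : T.index = 2)
    (hcomm : ∀ a ∈ T, ∀ b ∈ T, a * b = b * a)
    (hk : 2 * Nat.card (ConjClasses X) = Nat.card T + 6) : mck X 2 = 4 := by
  classical
  have hN : T.Normal := Subgroup.normal_of_index_eq_two hidx
  have hdeg : ∀ χ : IrrCharacter X, charDegree (χ : X → ℂ) ∈ ({1, 2} : Finset ℕ) := by
    intro χ
    have h := Cfsg.Agent.Lib.Helper76.charDegree_dvd_index_of_comm T hcomm χ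
    rw [hidx] at h
    have := (Nat.dvd_prime Nat.prime_two).1 h
    simpa using this
  have h1 := sum_by_degree {1, 2} hdeg (fun _ => 1)
  have h2 := sum_by_degree {1, 2} hdeg (fun d => d ^ 2)
  have h3 := sum_by_degree {1, 2} hdeg (fun d => if 2 ∣ d then 0 else 1)
  rw [← mck_eq_sum] at h3
  rw [Finset.sum_pair (by norm_num)] at h1 h2 h3
  have h4 : ∑ χ : IrrCharacter X, (charDegree (χ : X → ℂ)) ^ 2 = Nat.card X :=
    Cfsg.Agent.Lib.Helper80.sum_sq_charDegree
  have h5 : Nat.card (IrrCharacter X) = Nat.card (ConjClasses X) :=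
    Cfsg.Agent.Lib.Helper3.card_irrCharacter
  have h6 : Nat.card X = Nat.card T * 2 := by rw [← hidx, Subgroup.card_mul_index]
  simp only [Finset.sum_const, Finset.card_univ, smul_eq_mul, mul_one] at h1
  rw [← Nat.card_eq_fintype_card, h5] at h1
  rw [h4, h6] at h2
  norm_num at h3 h2
  omega

end Cfsg.Agent.Lib.Helper16.McK
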