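import Cfsg.Agent.Lib.Helper16.McK.Defs
import Cfsg.Agent.Lib.Helper41.SL2Degree
import Cfsg.Agent.Lib.Helper41.Dicyclic
import Cfsg.Agent.Lib.Helper41.SylowTorus
import Cfsg.Agent.Lib.Helper62.SL2Norm
import Cfsg.Agent.Lib.Helper80.Core
import Cfsg.Agent.Lib.Helper76.ItoDeg
import Cfsg.Agent.Lib.Helper3.Table
import Cfsg.Agent.Lib.Helper78.DefectZero
import Cfsg.Agent.S2325
import Cfsg.Agent.S2428
import Cfsg.Agent.S2429
import Cfsg.Agent.S2430
import Cfsg.Agent.S2431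
import Cfsg.Agent.S2437
import Cfsg.Agent.Lib.Helper16.McK.MS
import Cfsg.Agent.Lib.Helper16.McK.FS
import Cfsg.Agent.Lib.Helper16.McK.G0
import Cfsg.Agent.Lib.Helper16.McK.G1
import Cfsg.Agent.Lib.Helper16.McK.G2
import Cfsg.Agent.Lib.Helper16.McK.G3
import Cfsg.Agent.Lib.Helper16.McK.G4
import Cfsg.Agent.Lib.Helper16.McK.CT

set_option autoImplicit false

namespace Cfsg.Agent.Lib.Helper16.McK

open Cfsg Cfsg.Agent.Lib.Helper41 Cfsg.Agent.Lib.Helper15 Cfsg.Agent.Lib.Helper74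

local notation "SL2" F => Matrix.SpecialLinearGroup (Fin 2) F

variable {F : Type*} [Field F] [Fintype F]

/-- [GGaux] expansion of `mck` over the six degrees, `q = 2 m + 1`, `m ≥ 2`. -/
theorem GGaux_expand (hodd : Odd (Fintype.card F)) (m : ℕ) (hm : 2 ≤ m)
    (hq : Fintype.card F = 2 * m + 1) (f : ℕ → ℕ) :
    ∑ χ : IrrCharacter (SL2 F), f (charDegree (χ : (SL2 F) → ℂ)) =
      nd (SL2 F) 1 * f 1 + nd (SL2 F) (2 * m + 1) * f (2 * m + 1)
      + nd (SL2 F) (2 * m + 2) * f (2 * m + 2) + nd (SL2 F) (m + 1) * f (m + 1)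
      + nd (SL2 F) (2 * m) * f (2 * m) + nd (SL2 F) m * f m := by
  have hD : ∀ χ : IrrCharacter (SL2 F), charDegree (χ : (SL2 F) → ℂ) ∈
      ({1, 2 * m + 1, 2 * m + 2, m + 1, 2 * m, m} : Finset ℕ) := by
    intro χ
    have h := deg_cases hodd χ
    simp only [Finset.mem_insert, Finset.mem_singleton]
    omega
  rw [sum_by_degree _ hD f]
  rw [Finset.sum_insert (by simp; omega), Finset.sum_insert (by simp; omega),
    Finset.sum_insert (by simp; omega), Finset.sum_insert (by simp; omega),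
    Finset.sum_insert (by simp; omega), Finset.sum_singleton]
  ring

/-- [GGaux] all the multiplicities, `q = 2 m + 1`, `m ≥ 2`. -/
theorem GGaux_nd (hodd : Odd (Fintype.card F)) (m : ℕ) (hm : 2 ≤ m)
    (hq : Fintype.card F = 2 * m + 1) :
    nd (SL2 F) 1 = 1 ∧ nd (SL2 F) (2 * m + 1) = 1 ∧ nd (SL2 F) (2 * m + 2) = m - 1 ∧
      nd (SL2 F) (m + 1) = 2 ∧ nd (SL2 F) (2 * m) = m ∧ nd (SL2 F) m = 2 := by
  have hq5 : 5 ≤ Fintype.card F := by omega
  have h1 := nd_one hodd hq5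
  have h2 := nd_q hodd
  have h3 := nd_halfP hodd hq5
  have h4 := nd_halfD hodd hq5
  obtain ⟨h5, h6⟩ := nd_big hodd hq5
  rw [hq] at h2 h3 h4 h5 h6
  have e1 : (2 * m + 1 + 1) / 2 = m + 1 := by omega
  have e2 : (2 * m + 1 - 1) / 2 = m := by omega
  have e3 : (2 * m + 1 - 3) / 2 = m - 1 := by omega
  have e4 : 2 * m + 1 - 1 = 2 * m := by omega
  rw [e1] at h3
  rw [e2] at h4 h6
  rw [e3] at h5
  rw [e4] at h6
  exact ⟨h1, h2, h5, h3, h6, h4⟩

end Cfsg.Agent.Lib.Helper16.McK
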