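import Cfsg.Agent.Lib.Helper16.McK.Defs
import Cfsg.Agent.Lib.Helper41.SL2Degree
import Cfsg.Agent.Lib.Helper41.Dicyclic
import Cfsg.Agent.Lib.Helper41.SylowTorus
import Cfsg.Agent.Lib.Helper62.SL2Norm
import Cfsg.Agent.Lib.Helper80.Core
import Cfsg.Agent.Lib.Helper76.ItoDeg
import Cfsg.Agent.Lib.Helper3.Table
import Cfsg.Agent.Lib.Helper78.DefectZero
import Cfsg.Agent.S2325
import Cfsg.Agent.S2428
import Cfsg.Agent.S2429
import Cfsg.Agent.S2430
import Cfsg.Agent.S2431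
import Cfsg.Agent.S2437
import Cfsg.Agent.Lib.Helper16.McK.MS
import Cfsg.Agent.Lib.Helper16.McK.FS
import Cfsg.Agent.Lib.Helper16.McK.G0
import Cfsg.Agent.Lib.Helper16.McK.G1
import Cfsg.Agent.Lib.Helper16.McK.G2
import Cfsg.Agent.Lib.Helper16.McK.G3
import Cfsg.Agent.Lib.Helper16.McK.G4

import Cfsg.Agent.Lib.Helper16.McK.GGaux

set_option autoImplicit false

namespace Cfsg.Agent.Lib.Helper16.McK

open Cfsg Cfsg.Agent.Lib.Helper41 Cfsg.Agent.Lib.Helper15 Cfsg.Agent.Lib.Helper74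

local notation "SL2" F => Matrix.SpecialLinearGroup (Fin 2) F

variable {F : Type*} [Field F] [Fintype F]

/-- [GG2a] `q ≥ 5`: MS + FS + G1 G2 G3 G4 (exactly one of `(q±1)/2` is odd; `q ± 1` are even). -/
theorem global_two_of_five_le (hodd : Odd (Fintype.card F)) (hq5 : 5 ≤ Fintype.card F) :
    mck (SL2 F) 2 = 4 := by
  obtain ⟨m, hm⟩ := hodd
  have hm2 : 2 ≤ m := by omega
  have hodd' : Odd (Fintype.card F) := ⟨m, hm⟩
  obtain ⟨h1, h2, h3, h4, h5, h6⟩ := GGaux_nd hodd' m hm2 hm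
  rw [mck_eq_sum, GGaux_expand hodd' m hm2 hm (fun d => if 2 ∣ d then 0 else 1), h1, h2, h3, h4,
    h5, h6]
  have e1 : ¬ (2 ∣ 1) := by omega
  have e2 : ¬ (2 ∣ 2 * m + 1) := by omega
  have e3 : 2 ∣ 2 * m + 2 := by omega
  have e4 : 2 ∣ 2 * m := by omega
  simp only [if_neg e1, if_neg e2, if_pos e3, if_pos e4]
  by_cases h : 2 ∣ m
  · have h' : ¬ (2 ∣ m + 1) := by omega
    simp only [if_pos h, if_neg h']
    omega
  · have h' : 2 ∣ m + 1 := by omega
    simp only [if_neg h, if_pos h']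
    omega

end Cfsg.Agent.Lib.Helper16.McK
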