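import Cfsg.Agent.Lib.Helper16.McK.Defs
import Cfsg.Agent.Lib.Helper41.SL2Degree
import Cfsg.Agent.Lib.Helper41.Dicyclic
import Cfsg.Agent.Lib.Helper41.SylowTorus
import Cfsg.Agent.Lib.Helper62.SL2Norm
import Cfsg.Agent.Lib.Helper80.Core
import Cfsg.Agent.Lib.Helper76.ItoDeg
import Cfsg.Agent.Lib.Helper3.Table
import Cfsg.Agent.Lib.Helper78.DefectZero
import Cfsg.Agent.S2325
import Cfsg.Agent.S2428
import Cfsg.Agent.S2429
import Cfsg.Agent.S2430
import Cfsg.Agent.S2431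
import Cfsg.Agent.S2437
import Cfsg.Agent.Lib.Helper16.McK.MS
import Cfsg.Agent.Lib.Helper16.McK.FS
import Cfsg.Agent.Lib.Helper16.McK.G0

set_option autoImplicit false

namespace Cfsg.Agent.Lib.Helper16.McK

open Cfsg Cfsg.Agent.Lib.Helper41 Cfsg.Agent.Lib.Helper15 Cfsg.Agent.Lib.Helper74

local notation "SL2" F => Matrix.SpecialLinearGroup (Fin 2) F

variable {F : Type*} [Field F] [Fintype F]

/-- [GG2b] `q = 3`: degrees in `{1,2,3,4}` (G0); `n₁+n₂+n₃+n₄ = 7`, `n₁+4n₂+9n₃+16n₄ = 24`; omega gives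
`n₁ = 3, n₃ = 1`. -/
theorem global_two_of_three (hq : Fintype.card F = 3) : mck (SL2 F) 2 = 4 := by
  have hodd : Odd (Fintype.card F) := by rw [hq]; decide
  have hD : ∀ χ : IrrCharacter (SL2 F), charDegree (χ : (SL2 F) → ℂ) ∈
      ({1, 2, 3, 4} : Finset ℕ) := by
    intro χ
    have h := deg_cases hodd χ
    simp only [Finset.mem_insert, Finset.mem_singleton]
    omega
  have hexp : ∀ f : ℕ → ℕ, ∑ χ : IrrCharacter (SL2 F), f (charDegree (χ : (SL2 F) → ℂ)) =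
      nd (SL2 F) 1 * f 1 + nd (SL2 F) 2 * f 2 + nd (SL2 F) 3 * f 3 + nd (SL2 F) 4 * f 4 := by
    intro f
    rw [sum_by_degree _ hD f]
    rw [Finset.sum_insert (by simp), Finset.sum_insert (by simp), Finset.sum_insert (by simp),
      Finset.sum_singleton]
    ring
  have hA : nd (SL2 F) 1 + nd (SL2 F) 2 + nd (SL2 F) 3 + nd (SL2 F) 4 = 7 := by
    have h1 := hexp (fun _ => 1)
    have h2 : ∑ χ : IrrCharacter (SL2 F), (1 : ℕ) = 7 := by
      rw [Finset.sum_const, Finset.card_univ, smul_eq_mul, mul_one, ← Nat.card_eq_fintype_card,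
        Cfsg.Agent.Lib.Helper3.card_irrCharacter, Cfsg.Agent.S2325.result hodd, hq]
    simp only [mul_one] at h1
    omega
  have hB : nd (SL2 F) 1 + nd (SL2 F) 2 * 4 + nd (SL2 F) 3 * 9 + nd (SL2 F) 4 * 16 = 24 := by
    have h1 := hexp (fun d => d ^ 2)
    have h2 : ∑ χ : IrrCharacter (SL2 F), (charDegree (χ : (SL2 F) → ℂ)) ^ 2 = 24 := by
      rw [Cfsg.Agent.Lib.Helper80.sum_sq_charDegree, Cfsg.Agent.Lib.Helper5.card_SL2, hq]
      norm_num
    norm_num at h1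
    omega
  rw [mck_eq_sum, hexp (fun d => if 2 ∣ d then 0 else 1)]
  have e1 : ¬ (2 ∣ 1) := by omega
  have e2 : (2 ∣ 2) := by omega
  have e3 : ¬ (2 ∣ 3) := by omega
  have e4 : (2 ∣ 4) := by omega
  simp only [if_neg e1, if_pos e2, if_neg e3, if_pos e4]
  omega

end Cfsg.Agent.Lib.Helper16.McK
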