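import Cfsg.Agent.Lib.Helper16.McK.Defs
import Cfsg.Agent.Lib.Helper41.SL2Degree
import Cfsg.Agent.Lib.Helper41.Dicyclic
import Cfsg.Agent.Lib.Helper41.SylowTorus
import Cfsg.Agent.Lib.Helper62.SL2Norm
import Cfsg.Agent.Lib.Helper80.Core
import Cfsg.Agent.Lib.Helper76.ItoDeg
import Cfsg.Agent.Lib.Helper3.Table
import Cfsg.Agent.Lib.Helper78.DefectZero
import Cfsg.Agent.S2325
import Cfsg.Agent.S2428
import Cfsg.Agent.S2429
import Cfsg.Agent.S2430
import Cfsg.Agent.S2431
import Cfsg.Agent.S2437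
import Cfsg.Agent.Lib.Helper16.McK.MS
import Cfsg.Agent.Lib.Helper16.McK.FS
import Cfsg.Agent.Lib.Helper16.McK.G0
import Cfsg.Agent.Lib.Helper16.McK.G2

set_option autoImplicit false

namespace Cfsg.Agent.Lib.Helper16.McK

open Cfsg Cfsg.Agent.Lib.Helper41 Cfsg.Agent.Lib.Helper15 Cfsg.Agent.Lib.Helper74

local notation "SL2" F => Matrix.SpecialLinearGroup (Fin 2) F

variable {F : Type*} [Field F] [Fintype F]

/-- [GGp] `p ∣ d` iff `d = q` by G0; total `q + 4` (S2325), minus G2. -/
theorem global_p (hodd : Odd (Fintype.card F)) (p : ℕ) [Fact p.Prime] [CharP F p] :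
    mck (SL2 F) p = Fintype.card F + 3 := by
  classical
  have hp : p.Prime := Fact.out
  have hpq : p ∣ Fintype.card F :=
    (CharP.cast_eq_zero_iff F p _).mp (Nat.cast_card_eq_zero F)
  have n1 : ¬ (p ∣ 1) := fun h' => by
    have := Nat.le_of_dvd (by norm_num) h'
    have := hp.two_le
    omega
  have key : ∀ χ : IrrCharacter (SL2 F),
      p ∣ charDegree (χ : (SL2 F) → ℂ) ↔ charDegree (χ : (SL2 F) → ℂ) = Fintype.card F := by
    intro χ
    constructor
    · intro h
      rcases deg_cases hodd χ with h1 | h1 | h1 | h1 | h1 | h1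
      · rw [h1] at h; exact absurd h n1
      · exact h1
      · rw [h1] at h; exact absurd ((Nat.dvd_add_right hpq).mp h) n1
      · have h2 : p ∣ Fintype.card F + 1 := h1 ▸ Dvd.dvd.mul_left h 2
        exact absurd ((Nat.dvd_add_right hpq).mp h2) n1
      · have h2 : p ∣ charDegree (χ : (SL2 F) → ℂ) + 1 := h1 ▸ hpq
        exact absurd ((Nat.dvd_add_right h).mp h2) n1
      · have h2 : p ∣ 2 * charDegree (χ : (SL2 F) → ℂ) + 1 := h1 ▸ hpq
        exact absurd ((Nat.dvd_add_right (Dvd.dvd.mul_left h 2)).mp h2) n1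
    · intro h
      rw [h]; exact hpq
  have htot : Fintype.card (IrrCharacter (SL2 F)) = Fintype.card F + 4 := by
    rw [← Nat.card_eq_fintype_card, Cfsg.Agent.Lib.Helper3.card_irrCharacter,
      Cfsg.Agent.S2325.result hodd]
  have hq1 : Fintype.card {χ : IrrCharacter (SL2 F) //
      charDegree (χ : (SL2 F) → ℂ) = Fintype.card F} = 1 := by
    rw [← Nat.card_eq_fintype_card]
    exact nd_q hodd
  have h1 : mck (SL2 F) p = Fintype.card {χ : IrrCharacter (SL2 F) //
      ¬ charDegree (χ : (SL2 F) → ℂ) = Fintype.card F} := by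
    rw [← Nat.card_eq_fintype_card]
    unfold mck
    exact Nat.card_congr (Equiv.subtypeEquivRight fun χ => not_congr (key χ))
  rw [h1, Fintype.card_subtype_compl, htot, hq1]
  rfl

end Cfsg.Agent.Lib.Helper16.McK
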