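import Cfsg.Agent.Lib.Helper16.McK.Defs
import Cfsg.Agent.Lib.Helper41.SL2Degree
import Cfsg.Agent.Lib.Helper41.Dicyclic
import Cfsg.Agent.Lib.Helper41.SylowTorus
import Cfsg.Agent.Lib.Helper62.SL2Norm
import Cfsg.Agent.Lib.Helper80.Core
import Cfsg.Agent.Lib.Helper76.ItoDeg
import Cfsg.Agent.Lib.Helper3.Table
import Cfsg.Agent.Lib.Helper78.DefectZero
import Cfsg.Agent.S2325
import Cfsg.Agent.S2428
import Cfsg.Agent.S2429
import Cfsg.Agent.S2430
import Cfsg.Agent.S2431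
import Cfsg.Agent.S2437
import Cfsg.Agent.Lib.Helper16.McK.MS
import Cfsg.Agent.Lib.Helper16.McK.FS
import Cfsg.Agent.Lib.Helper16.McK.G0
import Cfsg.Agent.Lib.Helper16.McK.G1
import Cfsg.Agent.Lib.Helper16.McK.G2
import Cfsg.Agent.Lib.Helper16.McK.G3
import Cfsg.Agent.Lib.Helper16.McK.G4
import Cfsg.Agent.Lib.Helper16.McK.CT

import Cfsg.Agent.Lib.Helper16.McK.GGaux

set_option autoImplicit false

namespace Cfsg.Agent.Lib.Helper16.McK

open Cfsg Cfsg.Agent.Lib.Helper41 Cfsg.Agent.Lib.Helper15 Cfsg.Agent.Lib.Helper74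

local notation "SL2" F => Matrix.SpecialLinearGroup (Fin 2) F

variable {F : Type*} [Field F] [Fintype F]

/-- [GGpl] MS + FS + G1–G4 + CT: `ℓ ∤ 1, q, q-1, (q-1)/2`, `ℓ ∣ q+1, (q+1)/2`. -/
theorem global_plus (hodd : Odd (Fintype.card F)) (ℓ : ℕ) [Fact ℓ.Prime] (hℓ : ℓ ≠ 2)
    (h : ℓ ∣ Fintype.card F + 1) : mck (SL2 F) ℓ = (Fintype.card F + 7) / 2 := by
  have hp : ℓ.Prime := Fact.out
  have hℓ3 : 3 ≤ ℓ := by
    have := hp.two_le
    omega
  obtain ⟨m, hm⟩ := hodd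
  have hodd' : Odd (Fintype.card F) := ⟨m, hm⟩
  have h2m : ℓ ∣ 2 * (m + 1) := by
    have : Fintype.card F + 1 = 2 * (m + 1) := by omega
    rwa [this] at h
  have hlm : ℓ ∣ m + 1 := by
    rcases (Nat.Prime.dvd_mul hp).mp h2m with h' | h'
    · exact absurd (Nat.le_of_dvd (by norm_num) h') (by omega)
    · exact h'
  have hm2 : 2 ≤ m := by
    have := Nat.le_of_dvd (by omega) hlm
    omega
  obtain ⟨h1, h2, h3, h4, h5, h6⟩ := GGaux_nd hodd' m hm2 hm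
  rw [mck_eq_sum, GGaux_expand hodd' m hm2 hm (fun d => if ℓ ∣ d then 0 else 1), h1, h2, h3, h4,
    h5, h6]
  have n1 : ¬ (ℓ ∣ 1) := fun h' => by
    have := Nat.le_of_dvd (by norm_num) h'
    omega
  have n2 : ¬ (ℓ ∣ 2) := fun h' => by
    have := Nat.le_of_dvd (by norm_num) h'
    omega
  have h2m' : ℓ ∣ 2 * m + 2 := by
    have : 2 * m + 2 = 2 * (m + 1) := by ring
    rwa [this]
  have e2 : ¬ (ℓ ∣ 2 * m + 1) := fun h' => n1 (by
    have := (Nat.dvd_add_right h').mp (show ℓ ∣ (2 * m + 1) + 1 from h2m')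
    exact this)
  have e3 : ¬ (ℓ ∣ 2 * m) := fun h' => n2 ((Nat.dvd_add_right h').mp h2m')
  have e4 : ¬ (ℓ ∣ m) := fun h' => n1 ((Nat.dvd_add_right h').mp hlm)
  simp only [if_neg n1, if_neg e2, if_neg e3, if_neg e4, if_pos h2m', if_pos hlm]
  omega

end Cfsg.Agent.Lib.Helper16.McK
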