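import Cfsg.Agent.Lib.Helper16.McK.Defs
import Cfsg.Agent.Lib.Helper41.SL2Degree
import Cfsg.Agent.Lib.Helper41.Dicyclic
import Cfsg.Agent.Lib.Helper41.SylowTorus
import Cfsg.Agent.Lib.Helper62.SL2Norm
import Cfsg.Agent.Lib.Helper80.Core
import Cfsg.Agent.Lib.Helper76.ItoDeg
import Cfsg.Agent.Lib.Helper3.Table
import Cfsg.Agent.Lib.Helper78.DefectZero
import Cfsg.Agent.S2325
import Cfsg.Agent.S2428
import Cfsg.Agent.S2429
import Cfsg.Agent.S2430
import Cfsg.Agent.S2431
import Cfsg.Agent.S2437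
import Cfsg.Agent.Lib.Helper16.McK.D

set_option autoImplicit false

namespace Cfsg.Agent.Lib.Helper16.McK

open Cfsg Cfsg.Agent.Lib.Helper41 Cfsg.Agent.Lib.Helper15 Cfsg.Agent.Lib.Helper74

local notation "SL2" F => Matrix.SpecialLinearGroup (Fin 2) F

/-- the cyclic subgroup of index two of the quaternion group -/
def Q_T (n : ℕ) : Subgroup (QuaternionGroup n) where
  carrier := Set.range QuaternionGroup.a
  mul_mem' := by
    rintro _ _ ⟨i, rfl⟩ ⟨j, rfl⟩
    exact ⟨i + j, (QuaternionGroup.a_mul_a i j).symm⟩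
  one_mem' := ⟨0, rfl⟩
  inv_mem' := by
    rintro _ ⟨i, rfl⟩
    exact ⟨-i, rfl⟩

theorem Q_inv_a {n : ℕ} (i : ZMod (2 * n)) :
    (QuaternionGroup.a i : QuaternionGroup n)⁻¹ = QuaternionGroup.a (-i) := rfl

theorem Q_inv_xa {n : ℕ} (i : ZMod (2 * n)) :
    (QuaternionGroup.xa i : QuaternionGroup n)⁻¹ = QuaternionGroup.xa ((n : ZMod (2 * n)) + i) := rfl

theorem Q_a_eq_one {n : ℕ} {i : ZMod (2 * n)}
    (h : (QuaternionGroup.a i : QuaternionGroup n) = 1) : i = 0 := by
  rw [QuaternionGroup.one_def] at h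
  exact QuaternionGroup.a.inj h

/-- [Q] apply D with `T = zpowers (a 1)` and `Helper41.two_mul_card_conjClasses_of_inverted` (`z = a n`). -/
theorem mck_two_quaternion (n : ℕ) [NeZero n] : mck (QuaternionGroup n) 2 = 4 := by
  have hM : NeZero (2 * n) := ⟨by have := NeZero.ne n; omega⟩
  have hnpos : 0 < n := Nat.pos_of_ne_zero (NeZero.ne n)
  have hcardT : Nat.card (Q_T n) = 2 * n := by
    have h1 : Nat.card (Q_T n) = Nat.card (Set.range (QuaternionGroup.a : ZMod (2 * n) → _)) := rfl
    rw [h1, Nat.card_range_of_injective (fun i j h => by simpa using h), Nat.card_zmod]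
  have hidx : (Q_T n).index = 2 := by
    have h1 := Subgroup.card_mul_index (Q_T n)
    rw [hcardT, Nat.card_eq_fintype_card, QuaternionGroup.card] at h1
    have h2 : 2 * n * (Q_T n).index = 2 * n * 2 := by rw [h1]; ring
    exact Nat.eq_of_mul_eq_mul_left (by omega) h2
  have hcomm : ∀ x ∈ Q_T n, ∀ y ∈ Q_T n, x * y = y * x := by
    rintro _ ⟨i, rfl⟩ _ ⟨j, rfl⟩
    rw [QuaternionGroup.a_mul_a, QuaternionGroup.a_mul_a, add_comm]
  apply mck_two_of_dicyclic (Q_T n) hidx hcomm
  apply two_mul_card_conjClasses_of_inverted (Q_T n) hidx hcomm ?_ (QuaternionGroup.a n) ⟨_, rfl⟩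
  · intro h
    have h1 : ((n : ℕ) : ZMod (2 * n)) = 0 := Q_a_eq_one h
    rw [ZMod.natCast_eq_zero_iff] at h1
    have := Nat.le_of_dvd hnpos h1
    omega
  · rintro _ ⟨j, rfl⟩
    rw [QuaternionGroup.a_mul_a]
    constructor
    · intro h
      have h0 : j + j = 0 := Q_a_eq_one h
      have h1 : ((2 * j.val : ℕ) : ZMod (2 * n)) = 0 := by
        push_cast
        rw [ZMod.natCast_zmod_val]
        linear_combination h0
      rw [ZMod.natCast_eq_zero_iff] at h1
      obtain ⟨c, hc⟩ := Nat.dvd_of_mul_dvd_mul_left (by norm_num) h1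
      have hlt : j.val < 2 * n := ZMod.val_lt j
      have hc2 : c < 2 := by
        by_contra hcon
        have : n * 2 ≤ n * c := Nat.mul_le_mul_left n (by omega)
        omega
      have hj : j = ((n * c : ℕ) : ZMod (2 * n)) := by
        rw [← hc, ZMod.natCast_zmod_val]
      interval_cases c
      · left
        rw [hj]
        simp
      · right
        rw [hj]
        simp
    · rintro (h | h)
      · have h0 : j = 0 := Q_a_eq_one h
        rw [h0]
        simp
      · have h0 : j = (n : ZMod (2 * n)) := by simpa using h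
        rw [h0]
        have : ((n : ℕ) : ZMod (2 * n)) + n = 0 := by
          have h2 : ((2 * n : ℕ) : ZMod (2 * n)) = 0 := ZMod.natCast_self _
          rw [← h2]; push_cast; ring
        rw [this]
        rfl
  · intro g hg t ht
    obtain ⟨j, rfl⟩ := ht
    cases g with
    | a i => exact absurd ⟨i, rfl⟩ hg
    | xa i =>
      rw [QuaternionGroup.xa_mul_a, Q_inv_xa, QuaternionGroup.xa_mul_xa, Q_inv_a]
      congr 1
      have h2 : ((n : ℕ) : ZMod (2 * n)) + n = 0 := by
        have h2 : ((2 * n : ℕ) : ZMod (2 * n)) = 0 := ZMod.natCast_self _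
        rw [← h2]; push_cast; ring
      linear_combination h2

end Cfsg.Agent.Lib.Helper16.McK
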