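import Cfsg.Agent.Lib.Helper16.McK.Defs
import Cfsg.Agent.Lib.Helper41.SL2Degree
import Cfsg.Agent.Lib.Helper41.Dicyclic
import Cfsg.Agent.Lib.Helper41.SylowTorus
import Cfsg.Agent.Lib.Helper62.SL2Norm
import Cfsg.Agent.Lib.Helper80.Core
import Cfsg.Agent.Lib.Helper76.ItoDeg
import Cfsg.Agent.Lib.Helper3.Table
import Cfsg.Agent.Lib.Helper78.DefectZero
import Cfsg.Agent.S2325
import Cfsg.Agent.S2428
import Cfsg.Agent.S2429
import Cfsg.Agent.S2430
import Cfsg.Agent.S2431
import Cfsg.Agent.S2437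

set_option autoImplicit false

namespace Cfsg.Agent.Lib.Helper16.McK

open Cfsg Cfsg.Agent.Lib.Helper41 Cfsg.Agent.Lib.Helper15 Cfsg.Agent.Lib.Helper74

local notation "SL2" F => Matrix.SpecialLinearGroup (Fin 2) F

/-- [T1] transport along an isomorphism (use `Helper80.irrCongr`; `charDegree` only depends on `χ 1`). -/
theorem mck_congr {X Y : Type*} [Group X] [Group Y] (e : X ≃* Y) (ℓ : ℕ) : mck X ℓ = mck Y ℓ := by
  unfold mck
  symm
  apply Nat.card_congr
  refine (Cfsg.Agent.Lib.Helper80.irrCongr e).subtypeEquiv ?_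
  intro χ
  have : charDegree ((Cfsg.Agent.Lib.Helper80.irrCongr e χ : IrrCharacter X) : X → ℂ)
      = charDegree (χ : Y → ℂ) := by
    unfold charDegree
    rw [Cfsg.Agent.Lib.Helper80.irrCongr_apply, map_one]
  rw [this]

end Cfsg.Agent.Lib.Helper16.McK
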