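import Cfsg.Agent.Lib.Helper16.McK.Defs
import Cfsg.Agent.Lib.Helper41.SL2Degree
import Cfsg.Agent.Lib.Helper41.Dicyclic
import Cfsg.Agent.Lib.Helper41.SylowTorus
import Cfsg.Agent.Lib.Helper62.SL2Norm
import Cfsg.Agent.Lib.Helper80.Core
import Cfsg.Agent.Lib.Helper76.ItoDeg
import Cfsg.Agent.Lib.Helper3.Table
import Cfsg.Agent.Lib.Helper78.DefectZero
import Cfsg.Agent.S2325
import Cfsg.Agent.S2428
import Cfsg.Agent.S2429
import Cfsg.Agent.S2430
import Cfsg.Agent.S2431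
import Cfsg.Agent.S2437
import Cfsg.Agent.Lib.Helper16.McK.T1
import Cfsg.Agent.Lib.Helper16.McK.Q

set_option autoImplicit false

namespace Cfsg.Agent.Lib.Helper16.McK

open Cfsg Cfsg.Agent.Lib.Helper41 Cfsg.Agent.Lib.Helper15 Cfsg.Agent.Lib.Helper74

local notation "SL2" F => Matrix.SpecialLinearGroup (Fin 2) F

variable {F : Type*} [Field F] [Fintype F]

/-- [L2a] `q ≡ ±1 mod 8`: S2431 gives `normalizer S = S`; `Helper5.sylow_two_SL2_quaternion`; T1 + Q. -/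
theorem local_two_a (hodd : Odd (Fintype.card F)) (hq : Fintype.card F % 8 = 1 ∨ Fintype.card F % 8 = 7)
    (S : Sylow 2 (SL2 F)) :
    mck (Subgroup.normalizer ((S : Subgroup (SL2 F)) : Set (SL2 F))) 2 = 4 := by
  obtain ⟨k, -, ⟨e⟩⟩ := Cfsg.Agent.Lib.Helper5.sylow_two_SL2_quaternion hodd S
  have hne : NeZero (2 ^ k) := ⟨by positivity⟩
  rw [(Cfsg.Agent.S2431.result hodd S).2.1 hq, mck_congr e 2]
  exact mck_two_quaternion (2 ^ k)

end Cfsg.Agent.Lib.Helper16.McK
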