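import Cfsg.Agent.Lib.Helper16.McK.Defs
import Cfsg.Agent.Lib.Helper41.SL2Degree
import Cfsg.Agent.Lib.Helper41.Dicyclic
import Cfsg.Agent.Lib.Helper41.SylowTorus
import Cfsg.Agent.Lib.Helper62.SL2Norm
import Cfsg.Agent.Lib.Helper80.Core
import Cfsg.Agent.Lib.Helper76.ItoDeg
import Cfsg.Agent.Lib.Helper3.Table
import Cfsg.Agent.Lib.Helper78.DefectZero
import Cfsg.Agent.S2325
import Cfsg.Agent.S2428
import Cfsg.Agent.S2429
import Cfsg.Agent.S2430
import Cfsg.Agent.S2431
import Cfsg.Agent.S2437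

set_option autoImplicit false

namespace Cfsg.Agent.Lib.Helper16.McK

open Cfsg Cfsg.Agent.Lib.Helper41 Cfsg.Agent.Lib.Helper15 Cfsg.Agent.Lib.Helper74

local notation "SL2" F => Matrix.SpecialLinearGroup (Fin 2) F

variable {F : Type*} [Field F] [Fintype F]

/-- [L2b] `q ≡ ±3 mod 8`: `|N| = 24`, `S ≅ Q₈` (as in the proof of S2431), an element `g ∈ N` of order 3 does not
centralise `S` (S2431: `C(S)` = centre, of order 2: `Helper62.eq_one_or_neg_one_of_commute`/`centralizer_quat`);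
`Helper62.sl23_quotient` inside `X = N` with `g ^ 3 = 1`, `Q ⊔ zpowers g = ⊤` by orders. -/
theorem local_two_b_iso (hodd : Odd (Fintype.card F)) (hq : Fintype.card F % 8 = 3 ∨ Fintype.card F % 8 = 5)
    (S : Sylow 2 (SL2 F)) :
    Nonempty (Subgroup.normalizer ((S : Subgroup (SL2 F)) : Set (SL2 F)) ≃*
      Matrix.SpecialLinearGroup (Fin 2) (ZMod 3)) := by
  have h2 := Cfsg.Agent.Lib.Helper5.two_ne_zero_of_odd_card hodd
  obtain ⟨k, hk, ⟨e⟩⟩ := Cfsg.Agent.Lib.Helper5.sylow_two_SL2_quaternion hodd S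
  have hne : NeZero (2 ^ k) := ⟨by positivity⟩
  have hcardS : Nat.card (S : Subgroup (SL2 F)) = 4 * 2 ^ k := by
    rw [Nat.card_congr e.toEquiv, Nat.card_eq_fintype_card, QuaternionGroup.card]
  have hG := Cfsg.Agent.Lib.Helper5.card_SL2 (F := F)
  have h16 := Cfsg.Agent.Lib.Helper62.not_sixteen_dvd_of_mod_eight hq
  rw [← hG] at h16
  have hk1 : k = 1 := by
    by_contra hcon
    obtain ⟨m, rfl⟩ : ∃ m, k = m + 2 := ⟨k - 2, by omega⟩
    apply h16
    have h1 := Subgroup.card_subgroup_dvd_card (S : Subgroup (SL2 F))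
    rw [hcardS] at h1
    refine Dvd.dvd.trans ⟨2 ^ m, ?_⟩ h1
    ring
  subst hk1
  have e2 : (S : Subgroup (SL2 F)) ≃* QuaternionGroup 2 := e
  have hS8 : Nat.card (S : Subgroup (SL2 F)) = 8 := by rw [hcardS]; norm_num
  have hN24 : Nat.card (Subgroup.normalizer ((S : Subgroup (SL2 F)) : Set (SL2 F))) = 24 := by
    have h := (Cfsg.Agent.S2431.result hodd S).2.2 hq
    have h' : Nat.card S = 8 := hS8
    rw [h, h']
  obtain ⟨N, hN⟩ : ∃ N : Subgroup (SL2 F),
      N = Subgroup.normalizer ((S : Subgroup (SL2 F)) : Set (SL2 F)) := ⟨_, rfl⟩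
  rw [← hN] at hN24 ⊢
  have hSN : (S : Subgroup (SL2 F)) ≤ N := hN ▸ Subgroup.le_normalizer
  have hnorm : ((S : Subgroup (SL2 F)).subgroupOf N).Normal := by
    rw [hN]
    exact Subgroup.normal_in_normalizer
  have eQ : (S : Subgroup (SL2 F)).subgroupOf N ≃* QuaternionGroup 2 :=
    (Subgroup.subgroupOfEquivOfLe hSN).trans e2
  have hQ8 : Nat.card ((S : Subgroup (SL2 F)).subgroupOf N) = 8 := by
    rw [Nat.card_congr (Subgroup.subgroupOfEquivOfLe hSN).toEquiv, hS8]
  obtain ⟨g, hg⟩ := exists_prime_orderOf_dvd_card' (G := N) 3 (by rw [hN24]; decide)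
  have hg3 : g ^ 3 = 1 := by rw [← hg]; exact pow_orderOf_eq_one g
  apply Cfsg.Agent.Lib.Helper62.nonempty_equiv_SL23_of_q8 eQ (g := g)
  · rw [Subgroup.normalizer_eq_top]
    exact Subgroup.mem_top g
  · intro hc
    have hc' : (g : SL2 F) ∈ Subgroup.centralizer ((S : Subgroup (SL2 F)) : Set (SL2 F)) := by
      rw [Subgroup.mem_centralizer_iff]
      intro s hs
      have := (Subgroup.mem_centralizer_iff.1 hc) ⟨s, hSN hs⟩ (by
        change _ ∈ (S : Subgroup (SL2 F)).subgroupOf N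
        rw [Subgroup.mem_subgroupOf]; exact hs)
      exact congrArg Subtype.val this
    have hsq : (g : SL2 F) ^ 2 = 1 := by
      rcases (Cfsg.Agent.Lib.Helper62.centralizer_quat h2 (S : Subgroup (SL2 F)) 2 1 rfl e2).1 _ hc'
        with h | h
      · rw [h, one_pow]
      · rw [h]; simp
    have hsq' : g ^ 2 = 1 := Subtype.ext hsq
    have h1 : g = 1 := by
      calc g = g ^ 3 * (g ^ 2)⁻¹ := by group
        _ = 1 := by rw [hg3, hsq']; simp
    rw [h1, orderOf_one] at hg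
    exact absurd hg (by decide)
  · exact hg3
  · apply Subgroup.eq_top_of_le_card
    rw [hN24]
    have d1 : 8 ∣ Nat.card ↥((S : Subgroup (SL2 F)).subgroupOf N ⊔ Subgroup.zpowers g) := by
      rw [← hQ8]
      exact Subgroup.card_dvd_of_le le_sup_left
    have d2 : 3 ∣ Nat.card ↥((S : Subgroup (SL2 F)).subgroupOf N ⊔ Subgroup.zpowers g) := by
      rw [← hg, ← Nat.card_zpowers]
      exact Subgroup.card_dvd_of_le le_sup_right
    have d3 : 8 * 3 ∣ Nat.card ↥((S : Subgroup (SL2 F)).subgroupOf N ⊔ Subgroup.zpowers g) :=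
      Nat.Coprime.mul_dvd_of_dvd_of_dvd (by decide) d1 d2
    exact Nat.le_of_dvd Nat.card_pos d3

end Cfsg.Agent.Lib.Helper16.McK
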