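import Cfsg.Agent.Lib.Helper16.McK.Defs
import Cfsg.Agent.Lib.Helper41.SL2Degree
import Cfsg.Agent.Lib.Helper41.Dicyclic
import Cfsg.Agent.Lib.Helper41.SylowTorus
import Cfsg.Agent.Lib.Helper62.SL2Norm
import Cfsg.Agent.Lib.Helper80.Core
import Cfsg.Agent.Lib.Helper76.ItoDeg
import Cfsg.Agent.Lib.Helper3.Table
import Cfsg.Agent.Lib.Helper78.DefectZero
import Cfsg.Agent.S2325
import Cfsg.Agent.S2428
import Cfsg.Agent.S2429
import Cfsg.Agent.S2430
import Cfsg.Agent.S2431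
import Cfsg.Agent.S2437

set_option autoImplicit false

namespace Cfsg.Agent.Lib.Helper16.McK

open Cfsg Cfsg.Agent.Lib.Helper41 Cfsg.Agent.Lib.Helper15 Cfsg.Agent.Lib.Helper74

local notation "SL2" F => Matrix.SpecialLinearGroup (Fin 2) F

/-- [T2] Ito (`Helper76.charDegree_dvd_index_of_comm`) + `Helper3.card_irrCharacter`. -/
theorem mck_eq_card_conjClasses {X : Type*} [Group X] [Finite X] (ℓ : ℕ) (A : Subgroup X) [A.Normal]
    (hA : ∀ a ∈ A, ∀ b ∈ A, a * b = b * a) (hidx : ¬ ℓ ∣ A.index) :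
    mck X ℓ = Nat.card (ConjClasses X) := by
  unfold mck
  rw [← Cfsg.Agent.Lib.Helper3.card_irrCharacter]
  apply Nat.card_congr
  refine Equiv.subtypeUnivEquiv ?_
  intro χ h
  exact hidx (h.trans (Cfsg.Agent.Lib.Helper76.charDegree_dvd_index_of_comm A hA χ))

end Cfsg.Agent.Lib.Helper16.McK
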