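import Cfsg.Agent.Lib.Helper16.McK.Defs
import Cfsg.Agent.Lib.Helper41.SL2Degree
import Cfsg.Agent.Lib.Helper41.Dicyclic
import Cfsg.Agent.Lib.Helper41.SylowTorus
import Cfsg.Agent.Lib.Helper62.SL2Norm
import Cfsg.Agent.Lib.Helper80.Core
import Cfsg.Agent.Lib.Helper76.ItoDeg
import Cfsg.Agent.Lib.Helper3.Table
import Cfsg.Agent.Lib.Helper78.DefectZero
import Cfsg.Agent.S2325
import Cfsg.Agent.S2428
import Cfsg.Agent.S2429
import Cfsg.Agent.S2430
import Cfsg.Agent.S2431
import Cfsg.Agent.S2437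
import Cfsg.Agent.Lib.Helper16.McK.T1
import Cfsg.Agent.Lib.Helper16.McK.T2

set_option autoImplicit false

namespace Cfsg.Agent.Lib.Helper16.McK

open Cfsg Cfsg.Agent.Lib.Helper41 Cfsg.Agent.Lib.Helper15 Cfsg.Agent.Lib.Helper74

local notation "SL2" F => Matrix.SpecialLinearGroup (Fin 2) F

open scoped Pointwise in
/-- [LT] abstract torus step: `sylow_in_torus` gives `normalizer P = conj x • normalizer T`; T1 with
`Subgroup.equivSMul`; T2 in `normalizer T` with `A = T.subgroupOf (normalizer T)` (index 2, `ℓ ≠ 2` prime). -/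
theorem mck_normalizer_of_torus {G : Type*} [Group G] [Finite G] (T : Subgroup G) (hcyc : IsCyclic T) (n k : ℕ)
    (hcard : Nat.card T = n) (hN : Nat.card (Subgroup.normalizer (T : Set G)) = 2 * n)
    (hk : Nat.card (ConjClasses (Subgroup.normalizer (T : Set G))) = k)
    (ℓ : ℕ) [Fact ℓ.Prime] (hℓ2 : ℓ ≠ 2) (hℓT : ℓ ∣ n) (hidx : ¬ ℓ ∣ T.index)
    (hC : ∀ g ∈ T, g * g ≠ 1 → Subgroup.centralizer ({g} : Set G) = T)
    (P : Sylow ℓ G) : mck (Subgroup.normalizer ((P : Subgroup G) : Set G)) ℓ = k := by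
  have hℓ : ℓ.Prime := Fact.out
  have hcomm : ∀ a ∈ T, ∀ b ∈ T, a * b = b * a := by
    intro a ha b hb
    letI := IsCyclic.commGroup (α := T)
    exact congrArg Subtype.val (mul_comm (⟨a, ha⟩ : T) ⟨b, hb⟩)
  obtain ⟨x, -, h2⟩ := sylow_in_torus T hcomm ℓ hℓ2 (hcard ▸ hℓT) hidx hC P
  rw [h2, ← mck_congr (Subgroup.equivSMul (MulAut.conj x) (Subgroup.normalizer (T : Set G))) ℓ, ← hk]
  have hle : T ≤ Subgroup.normalizer (T : Set G) := Subgroup.le_normalizer
  haveI : (T.subgroupOf (Subgroup.normalizer (T : Set G))).Normal := Subgroup.normal_in_normalizer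
  apply mck_eq_card_conjClasses ℓ (T.subgroupOf (Subgroup.normalizer (T : Set G)))
  · intro a ha b hb
    exact Subtype.ext (hcomm a.1 ha b.1 hb)
  · have h3 := (T.subgroupOf (Subgroup.normalizer (T : Set G))).index_mul_card
    rw [Nat.card_congr (Subgroup.subgroupOfEquivOfLe hle).toEquiv, hcard, hN] at h3
    have hn : 0 < n := by rw [← hcard]; exact Nat.card_pos
    have h4 : (T.subgroupOf (Subgroup.normalizer (T : Set G))).index = 2 :=
      Nat.eq_of_mul_eq_mul_right hn h3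
    rw [h4]
    intro hd
    exact hℓ2 ((Nat.prime_dvd_prime_iff_eq hℓ Nat.prime_two).mp hd)

end Cfsg.Agent.Lib.Helper16.McK
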