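import Cfsg.Agent.Lib.Helper16.McK.Defs
import Cfsg.Agent.Lib.Helper41.SL2Degree
import Cfsg.Agent.Lib.Helper41.Dicyclic
import Cfsg.Agent.Lib.Helper41.SylowTorus
import Cfsg.Agent.Lib.Helper62.SL2Norm
import Cfsg.Agent.Lib.Helper80.Core
import Cfsg.Agent.Lib.Helper76.ItoDeg
import Cfsg.Agent.Lib.Helper3.Table
import Cfsg.Agent.Lib.Helper78.DefectZero
import Cfsg.Agent.S2325
import Cfsg.Agent.S2428
import Cfsg.Agent.S2429
import Cfsg.Agent.S2430
import Cfsg.Agent.S2431
import Cfsg.Agent.S2437
import Cfsg.Agent.Lib.Helper46.SL2Nat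

set_option autoImplicit false

namespace Cfsg.Agent.Lib.Helper16.McK

open Cfsg Cfsg.Agent.Lib.Helper41 Cfsg.Agent.Lib.Helper15 Cfsg.Agent.Lib.Helper74

local notation "SL2" F => Matrix.SpecialLinearGroup (Fin 2) F

variable {F : Type*} [Field F] [Fintype F]

open Cfsg.Agent.Lib.Helper46.SL2Nat in
open scoped Pointwise in
/-- [Lp1] the unitriangular subgroup `U` is a Sylow `p`-subgroup (order `q`, `Helper5.card_SL2`), abelian, with
normaliser the Borel subgroup. -/
theorem exists_sylow_p (p : ℕ) [Fact p.Prime] [CharP F p] :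
    ∃ S₀ : Sylow p (SL2 F), (∀ a ∈ (S₀ : Subgroup (SL2 F)), ∀ b ∈ (S₀ : Subgroup (SL2 F)), a * b = b * a) ∧
      Subgroup.normalizer ((S₀ : Subgroup (SL2 F)) : Set (SL2 F)) =
        (Cfsg.upperTriangularGL 2 F).comap Matrix.SpecialLinearGroup.toGL := by
  classical
  obtain ⟨g, hg⟩ := sylow_eq_conj_U p (default : Sylow p (SL2 F))
  have hS : ((g⁻¹ • (default : Sylow p (SL2 F)) : Sylow p (SL2 F)) : Subgroup (SL2 F)) = U F := by
    ext x
    rw [Sylow.coe_subgroup_smul, Subgroup.mem_pointwise_smul_iff_inv_smul_mem, MulAut.smul_def,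
      ← map_inv, inv_inv, MulAut.conj_apply]
    have h1 := hg (g * x * g⁻¹)
    have h2 : g⁻¹ * (g * x * g⁻¹) * g = x := by group
    rw [h2] at h1
    exact h1
  refine ⟨g⁻¹ • (default : Sylow p (SL2 F)), ?_, ?_⟩
  · rw [hS]
    intro a ha b hb
    rw [eq_u_of_mem ha, eq_u_of_mem hb, ← u_add, ← u_add, add_comm]
  · rw [hS]
    ext k
    have hB : k ∈ (Cfsg.upperTriangularGL 2 F).comap Matrix.SpecialLinearGroup.toGL ↔ k 1 0 = 0 := by
      rw [Subgroup.mem_comap]
      change ((k : Matrix (Fin 2) (Fin 2) F)).BlockTriangular id ↔ _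
      constructor
      · intro h
        exact h (show (0 : Fin 2) < 1 by decide)
      · intro h i j hij
        fin_cases i <;> fin_cases j <;> simp_all
    have hconj : ∀ x : SL2 F, k * x * k⁻¹ ∈ U F ↔
        (x : Matrix (Fin 2) (Fin 2) F).mulVec ![k 1 1, - k 1 0] = ![k 1 1, - k 1 0] := by
      intro x
      have := conj_mem_U_iff k⁻¹ x
      rwa [inv_inv, inv_00, inv_10] at this
    rw [hB, Subgroup.mem_normalizer_iff]
    constructor
    · intro h
      have h1 := (hconj (u 1)).mp ((h (u 1)).mp (u_mem 1))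
      have h2 := congrFun h1 0
      rw [mulVec_0] at h2
      simp only [u_00, u_01, Matrix.cons_val_zero, Matrix.cons_val_one] at h2
      linear_combination -h2
    · intro h x
      have hd := det2 k
      rw [h] at hd
      have h11 : k 1 1 ≠ 0 := by
        intro h0
        rw [h0] at hd
        simp at hd
      change x ∈ U F ↔ k * x * k⁻¹ ∈ U F
      rw [hconj, h, mem_U]
      constructor
      · rintro ⟨h0, h1⟩
        apply vec_ext
        · rw [mulVec_0]; simp [h0]
        · rw [mulVec_1]; simp [h1]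
      · intro hx
        have e0 := congrFun hx 0
        have e1 := congrFun hx 1
        rw [mulVec_0] at e0
        rw [mulVec_1] at e1
        simp only [Matrix.cons_val_zero, Matrix.cons_val_one, neg_zero, mul_zero, add_zero] at e0 e1
        exact ⟨mul_right_cancel₀ h11 (by rw [e0, one_mul]), by
          rcases mul_eq_zero.mp e1 with h' | h'
          · exact h'
          · exact absurd h' h11⟩

end Cfsg.Agent.Lib.Helper16.McK
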