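import Cfsg.Agent.Lib.Helper16.McK.Defs
import Cfsg.Agent.Lib.Helper41.SL2Degree
import Cfsg.Agent.Lib.Helper41.Dicyclic
import Cfsg.Agent.Lib.Helper41.SylowTorus
import Cfsg.Agent.Lib.Helper62.SL2Norm
import Cfsg.Agent.Lib.Helper80.Core
import Cfsg.Agent.Lib.Helper76.ItoDeg
import Cfsg.Agent.Lib.Helper3.Table
import Cfsg.Agent.Lib.Helper78.DefectZero
import Cfsg.Agent.S2325
import Cfsg.Agent.S2428
import Cfsg.Agent.S2429
import Cfsg.Agent.S2430
import Cfsg.Agent.S2431
import Cfsg.Agent.S2437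
import Cfsg.Agent.Lib.Helper16.McK.T1

set_option autoImplicit false

namespace Cfsg.Agent.Lib.Helper16.McK

open Cfsg Cfsg.Agent.Lib.Helper41 Cfsg.Agent.Lib.Helper15 Cfsg.Agent.Lib.Helper74

local notation "SL2" F => Matrix.SpecialLinearGroup (Fin 2) F

open scoped Pointwise in
/-- [T3] Sylow conjugacy + `Helper41.normalizer_conj_smul` + `Subgroup.equivSMul` + T1. -/
theorem mck_normalizer_conj {G : Type*} [Group G] [Finite G] (ℓ : ℕ) [Fact ℓ.Prime] (S S' : Sylow ℓ G) :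
    mck (Subgroup.normalizer ((S : Subgroup G) : Set G)) ℓ =
      mck (Subgroup.normalizer ((S' : Subgroup G) : Set G)) ℓ := by
  obtain ⟨g, rfl⟩ := MulAction.exists_smul_eq G S S'
  rw [Sylow.coe_subgroup_smul, normalizer_conj_smul]
  exact mck_congr (Subgroup.equivSMul (MulAut.conj g) _) ℓ

end Cfsg.Agent.Lib.Helper16.McK
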