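import Cfsg.Agent.Lib.Helper16.McK.Defs
import Cfsg.Agent.Lib.Helper41.SL2Degree
import Cfsg.Agent.Lib.Helper41.Dicyclic
import Cfsg.Agent.Lib.Helper41.SylowTorus
import Cfsg.Agent.Lib.Helper62.SL2Norm
import Cfsg.Agent.Lib.Helper80.Core
import Cfsg.Agent.Lib.Helper76.ItoDeg
import Cfsg.Agent.Lib.Helper3.Table
import Cfsg.Agent.Lib.Helper78.DefectZero
import Cfsg.Agent.S2325
import Cfsg.Agent.S2428
import Cfsg.Agent.S2429
import Cfsg.Agent.S2430
import Cfsg.Agent.S2431
import Cfsg.Agent.S2437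
import Cfsg.Agent.Lib.Helper16.McK.T2
import Cfsg.Agent.Lib.Helper16.McK.T3
import Cfsg.Agent.Lib.Helper16.McK.Lp1

set_option autoImplicit false

namespace Cfsg.Agent.Lib.Helper16.McK

open Cfsg Cfsg.Agent.Lib.Helper41 Cfsg.Agent.Lib.Helper15 Cfsg.Agent.Lib.Helper74

local notation "SL2" F => Matrix.SpecialLinearGroup (Fin 2) F

variable {F : Type*} [Field F] [Fintype F]

/-- [Lp] T3 reduces to `S₀` of Lp1; T2 in `N = normalizer S₀` with `A = S₀.subgroupOf N` (normal, abelian, index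
prime to `p` since `S₀` is Sylow); `k(N) = q + 3` by S2437. -/
theorem local_p (hodd : Odd (Fintype.card F)) (p : ℕ) [Fact p.Prime] [CharP F p] (S : Sylow p (SL2 F)) :
    mck (Subgroup.normalizer ((S : Subgroup (SL2 F)) : Set (SL2 F))) p = Fintype.card F + 3 := by
  obtain ⟨S₀, hab, hN⟩ := exists_sylow_p (F := F) p
  rw [mck_normalizer_conj p S S₀, ← Cfsg.Agent.S2437.result hodd, ← hN]
  have hle : (S₀ : Subgroup (SL2 F)) ≤ Subgroup.normalizer ((S₀ : Subgroup (SL2 F)) : Set (SL2 F)) :=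
    Subgroup.le_normalizer
  haveI : ((S₀ : Subgroup (SL2 F)).subgroupOf
      (Subgroup.normalizer ((S₀ : Subgroup (SL2 F)) : Set (SL2 F)))).Normal :=
    Subgroup.normal_in_normalizer
  apply mck_eq_card_conjClasses p ((S₀ : Subgroup (SL2 F)).subgroupOf
      (Subgroup.normalizer ((S₀ : Subgroup (SL2 F)) : Set (SL2 F))))
  · intro a ha b hb
    exact Subtype.ext (hab a.1 ha b.1 hb)
  · intro hd
    have h1 := Subgroup.relIndex_mul_index hle
    exact S₀.not_dvd_index (h1 ▸ Dvd.dvd.mul_right hd _)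

end Cfsg.Agent.Lib.Helper16.McK
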