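import Cfsg.Agent.Lib.Helper16.McK.Defs
import Cfsg.Agent.Lib.Helper41.SL2Degree
import Cfsg.Agent.Lib.Helper41.Dicyclic
import Cfsg.Agent.Lib.Helper41.SylowTorus
import Cfsg.Agent.Lib.Helper62.SL2Norm
import Cfsg.Agent.Lib.Helper80.Core
import Cfsg.Agent.Lib.Helper76.ItoDeg
import Cfsg.Agent.Lib.Helper3.Table
import Cfsg.Agent.Lib.Helper78.DefectZero
import Cfsg.Agent.S2325
import Cfsg.Agent.S2428
import Cfsg.Agent.S2429
import Cfsg.Agent.S2430
import Cfsg.Agent.S2431
import Cfsg.Agent.S2437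
import Cfsg.Agent.Lib.Helper16.McK.LT

set_option autoImplicit false

namespace Cfsg.Agent.Lib.Helper16.McK

open Cfsg Cfsg.Agent.Lib.Helper41 Cfsg.Agent.Lib.Helper15 Cfsg.Agent.Lib.Helper74

local notation "SL2" F => Matrix.SpecialLinearGroup (Fin 2) F

variable {F : Type*} [Field F] [Fintype F]

/-- [Lpl] COPY of the second half of the proof of `Cfsg.Agent.S2430.result`, with LT and S2429 (`(q+7)/2`). -/
theorem local_plus (hodd : Odd (Fintype.card F)) (ℓ : ℕ) [Fact ℓ.Prime] (hℓ : ℓ ≠ 2)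
    (h : ℓ ∣ Fintype.card F + 1) (P : Sylow ℓ (SL2 F)) :
    mck (Subgroup.normalizer ((P : Subgroup (SL2 F)) : Set (SL2 F))) ℓ = (Fintype.card F + 7) / 2 := by
  have hdvd := h
  classical
  have hℓp : ℓ.Prime := Fact.out
  have hodd' : Fintype.card F % 2 = 1 := Nat.odd_iff.1 hodd
  have h2 : (2 : F) ≠ 0 := two_ne_zero_of_odd_card hodd'
  have hq1 : 1 < Fintype.card F := Fintype.one_lt_card
  have hG := Cfsg.Agent.Lib.Helper5.card_SL2 (F := F)
  have e1 : Fintype.card F ^ 2 - 1 = (Fintype.card F + 1) * (Fintype.card F - 1) := by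
    have := Nat.sq_sub_sq (Fintype.card F) 1
    simpa using this
  rw [e1] at hG
  have hℓ3 : 3 ≤ ℓ := by
    have := hℓp.two_le
    omega
  obtain ⟨T, hcyc, hcardT, -, hC, -, hcardN, hkN, -⟩ := Cfsg.Agent.S2429.result hodd
  apply mck_normalizer_of_torus T hcyc _ _ hcardT hcardN hkN ℓ hℓ hdvd
  · intro hi
    have h3 := Subgroup.card_mul_index T
    rw [hcardT, hG] at h3
    have h4 : T.index = Fintype.card F * (Fintype.card F - 1) := by
      apply Nat.eq_of_mul_eq_mul_left (show 0 < Fintype.card F + 1 by omega)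
      rw [h3]; ring
    rw [h4] at hi
    rcases (Nat.Prime.dvd_mul hℓp).1 hi with h | h
    · have : ℓ ∣ 1 := by
        have h5 := (Nat.dvd_sub hdvd h)
        have h6 : Fintype.card F + 1 - Fintype.card F = 1 := by omega
        rwa [h6] at h5
      have := Nat.le_of_dvd (by norm_num) this
      omega
    · have : ℓ ∣ 2 := by
        have h5 := (Nat.dvd_sub hdvd h)
        have h6 : Fintype.card F + 1 - (Fintype.card F - 1) = 2 := by omega
        rwa [h6] at h5
      have := Nat.le_of_dvd (by norm_num) this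
      omega
  · intro g hg hgg
    apply hC g hg
    · intro h
      apply hgg
      rw [(sl2_eq_one_iff g).2 h, mul_one]
    · intro h
      apply hgg
      rw [(sl2_eq_neg_one_iff g).2 h]; simp

end Cfsg.Agent.Lib.Helper16.McK
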