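import Cfsg.Agent.Lib.Helper16.McK.Defs
import Cfsg.Agent.Lib.Helper41.SL2Degree
import Cfsg.Agent.Lib.Helper41.Dicyclic
import Cfsg.Agent.Lib.Helper41.SylowTorus
import Cfsg.Agent.Lib.Helper62.SL2Norm
import Cfsg.Agent.Lib.Helper80.Core
import Cfsg.Agent.Lib.Helper76.ItoDeg
import Cfsg.Agent.Lib.Helper3.Table
import Cfsg.Agent.Lib.Helper78.DefectZero
import Cfsg.Agent.S2325
import Cfsg.Agent.S2428
import Cfsg.Agent.S2429
import Cfsg.Agent.S2430
import Cfsg.Agent.S2431
import Cfsg.Agent.S2437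
import Cfsg.Agent.Lib.Helper16.McK.T1

set_option autoImplicit false

namespace Cfsg.Agent.Lib.Helper16.McK

open Cfsg Cfsg.Agent.Lib.Helper41 Cfsg.Agent.Lib.Helper15 Cfsg.Agent.Lib.Helper74

local notation "SL2" F => Matrix.SpecialLinearGroup (Fin 2) F

/-- [T4] `S = ⊥`, normalizer `= ⊤`, `Subgroup.topEquiv`, T1. -/
theorem mck_of_not_dvd {G : Type*} [Group G] [Finite G] (ℓ : ℕ) [Fact ℓ.Prime]
    (h : ¬ ℓ ∣ Nat.card G) (S : Sylow ℓ G) :
    mck G ℓ = mck (Subgroup.normalizer ((S : Subgroup G) : Set G)) ℓ := by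
  have hS : (S : Subgroup G) = ⊥ := by
    obtain ⟨k, hk⟩ := IsPGroup.iff_card.mp S.isPGroup'
    rcases k with _ | k
    · rw [pow_zero] at hk
      exact Subgroup.card_eq_one.1 hk
    · exfalso
      apply h
      refine Dvd.dvd.trans ?_ (Subgroup.card_subgroup_dvd_card (S : Subgroup G))
      rw [hk]
      exact dvd_pow_self ℓ (Nat.succ_ne_zero k)
  have hN : Subgroup.normalizer ((S : Subgroup G) : Set G) = ⊤ := by
    have : (S : Subgroup G).Normal := by rw [hS]; infer_instance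
    exact Subgroup.normalizer_eq_top _
  rw [hN]
  exact mck_congr Subgroup.topEquiv.symm ℓ

end Cfsg.Agent.Lib.Helper16.McK
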